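import Mathlib
import Cfsg.Agent.Lib.Helper33.Breadth.Defs

set_option autoImplicit false

/-! BREADTH (S3777) packages [MONO] and [DROP] (helper97). -/

namespace Cfsg.Agent.Lib.Helper97.Breadth

universe u

/-- the centralizer of `m` in `↥M` is the centralizer in `G` restricted to `M`. -/
theorem centralizer_sub_eq {G : Type u} [Group G] (M : Subgroup G) (m : ↥M) :
    Subgroup.centralizer ({m} : Set ↥M) =
      (Subgroup.centralizer ({(m : G)} : Set G)).subgroupOf M := by
  ext x
  simp only [Subgroup.mem_centralizer_iff, Set.mem_singleton_iff, forall_eq,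
    Subgroup.mem_subgroupOf]
  constructor
  · intro h
    have := congrArg (fun t : ↥M => (t : G)) h
    simpa using this
  · intro h
    apply Subtype.ext
    simpa using h

theorem idx_subOf {G : Type u} [Group G] (H K : Subgroup G) :
    (H.subgroupOf K).index = H.relIndex K := rfl

/-- [MONO]. -/
theorem pkgMono : Cfsg.Agent.Lib.Helper33.Breadth.PkgMono.{u} := by
  intro G _ _ M m
  rw [centralizer_sub_eq, idx_subOf]
  have h1 : (Subgroup.centralizer ({(m : G)} : Set G)).relIndex ⊤ ≠ 0 := by
    rw [Subgroup.relIndex_top_right]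
    exact Subgroup.index_ne_zero_of_finite
  have := Subgroup.relIndex_le_of_le_right (H := Subgroup.centralizer ({(m : G)} : Set G))
    (le_top : M ≤ ⊤) h1
  rwa [Subgroup.relIndex_top_right] at this

/-- [DROP]. -/
theorem pkgDrop : Cfsg.Agent.Lib.Helper33.Breadth.PkgDrop.{u} := by
  intro G _ _ p _ M m hM hle
  rw [centralizer_sub_eq, idx_subOf, ← hM]
  exact Subgroup.relIndex_mul_index hle

end Cfsg.Agent.Lib.Helper97.Breadth
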